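import Mathlib

/-!
# Groups of order 16 of type `D₈ × C₂`, elementwise (helper604, S4542 package F4)

* `Dt S z` : `|S| = 16`, `S' = {1, z}`, squares in `{1, z}`, `S` nonabelian with an elementary abelian
  subgroup of order 8;
* `Dt.exists_co` : generators `r, e, c`;
* `Dt.iterate_four` : every injective endomorphism of `S` has order dividing 4;
* `exists_maximal` : subgroups of index two avoiding a given element.
-/

set_option autoImplicit false

namespace Cfsg.Agent.H604.Small.DFourGrp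

variable {Ω : Type*} [Group Ω] {S : Subgroup Ω} {z : Ω}

/-- `S` is of order 16 with `S' = {1, z}`, squares in `{1, z}`. -/
structure Sz (S : Subgroup Ω) (z : Ω) : Prop where
  card : Nat.card S = 16
  mem : z ∈ S
  ne : z ≠ 1
  sq : ∀ x ∈ S, x * x = 1 ∨ x * x = z
  comm : ∀ x ∈ S, ∀ y ∈ S, x * y = y * x ∨ x * y = z * (y * x)
  na : ¬ ∀ x ∈ S, ∀ y ∈ S, x * y = y * x

namespace Sz

theorem zz (h : Sz S z) : z * z = 1 := by
  rcases h.sq z h.mem with h1 | h1
  · exact h1
  · exact absurd (mul_left_cancel (h1.trans (mul_one z).symm)) h.ne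

theorem zc (h : Sz S z) {x : Ω} (hx : x ∈ S) : x * z = z * x := by
  rcases h.comm x hx z h.mem with h1 | h1
  · exact h1
  · exfalso
    rw [← mul_assoc, h.zz, one_mul] at h1
    exact h.ne (mul_left_cancel (h1.trans (mul_one x).symm))

theorem fin (h : Sz S z) : Finite S := Nat.finite_of_card_ne_zero (by rw [h.card]; norm_num)

/-- the commutation is bilinear -/
theorem comm_mul (h : Sz S z) {x y w : Ω} (hx : x ∈ S) (hy : y ∈ S) (hw : w ∈ S)
    (h1 : x * w ≠ w * x) (h2 : y * w ≠ w * y) : x * y * w = w * (x * y) := by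
  have e1 := (h.comm x hx w hw).resolve_left h1
  have e2 := (h.comm y hy w hw).resolve_left h2
  calc x * y * w = x * (y * w) := mul_assoc _ _ _
    _ = x * (z * (w * y)) := by rw [e2]
    _ = (x * z) * (w * y) := by group
    _ = z * ((x * w) * y) := by rw [h.zc hx]; group
    _ = z * (z * (w * x) * y) := by rw [e1]
    _ = (z * z) * (w * (x * y)) := by group
    _ = w * (x * y) := by rw [h.zz, one_mul]

end Sz

/-- generators of `S` -/
structure Co (S : Subgroup Ω) (z r e c : Ω) : Prop where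
  sz : Sz S z
  r_mem : r ∈ S
  e_mem : e ∈ S
  c_mem : c ∈ S
  rr : r * r = z
  ee : e * e = 1
  re : r * e = z * (e * r)
  cc : ∀ x ∈ S, x * c = c * x
  c_sq : c * c = 1
  c_ne : c ≠ 1
  c_ne' : c ≠ z
  cen : ∀ w ∈ S, (∀ x ∈ S, x * w = w * x) → w = 1 ∨ w = z ∨ w = c ∨ w = c * z
  dec : ∀ x ∈ S, ∃ w ∈ S, (∀ y ∈ S, y * w = w * y) ∧
    (x = w ∨ x = w * r ∨ x = w * e ∨ x = w * (r * e))

theorem exists_co (h : Sz S z) {E : Subgroup Ω} (hE : E ≤ S) (hE8 : Nat.card E = 8)
    (hel : ∀ x ∈ E, x * x = 1) : ∃ r e c, Co S z r e c := by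
  classical
  have hfS := h.fin
  have hfE : Finite E := Nat.finite_of_card_ne_zero (by rw [hE8]; norm_num)
  have hEc : ∀ x ∈ E, ∀ y ∈ E, x * y = y * x := by
    intro x hx y hy
    have h1 := hel _ (E.mul_mem hx hy)
    have h2 : x⁻¹ = x := inv_eq_of_mul_eq_one_right (hel x hx)
    have h3 : y⁻¹ = y := inv_eq_of_mul_eq_one_right (hel y hy)
    have h4 : (x * y)⁻¹ = x * y := inv_eq_of_mul_eq_one_right h1
    rw [mul_inv_rev, h2, h3] at h4
    exact h4.symm
  -- `r`
  obtain ⟨r, hr, hrr⟩ : ∃ r ∈ S, r * r = z := by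
    by_contra hno
    push Not at hno
    apply h.na
    have hs : ∀ x ∈ S, x * x = 1 := fun x hx => (h.sq x hx).resolve_right (hno x hx)
    intro x hx y hy
    have h1 := hs _ (S.mul_mem hx hy)
    have h2 : x⁻¹ = x := inv_eq_of_mul_eq_one_right (hs x hx)
    have h3 : y⁻¹ = y := inv_eq_of_mul_eq_one_right (hs y hy)
    have h4 : (x * y)⁻¹ = x * y := inv_eq_of_mul_eq_one_right h1
    rw [mul_inv_rev, h2, h3] at h4
    exact h4.symm
  have hrE : r ∉ E := fun hc => h.ne (hrr.symm.trans (hel r hc))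
  -- index two
  have hidx : (E.subgroupOf S).index = 2 := by
    have h1 := Subgroup.card_mul_index (E.subgroupOf S)
    rw [Nat.card_congr (Subgroup.subgroupOfEquivOfLe hE).toEquiv, hE8, h.card] at h1
    omega
  have htwo : ∀ x ∈ S, x ∉ E → ∃ y ∈ E, x = y * r := by
    intro x hx hxE
    refine ⟨x * r⁻¹, ?_, by group⟩
    have h1 := (Subgroup.mul_mem_iff_of_index_two hidx (a := ⟨x, hx⟩) (b := (⟨r, hr⟩ : S)⁻¹)).2 (by
      rw [inv_mem_iff, Subgroup.mem_subgroupOf, Subgroup.mem_subgroupOf]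
      exact iff_of_false hxE hrE)
    exact h1
  -- `e`
  obtain ⟨e, he, hre⟩ : ∃ e ∈ E, r * e ≠ e * r := by
    by_contra hno
    push Not at hno
    apply h.na
    intro x hx y hy
    by_cases hxE : x ∈ E <;> by_cases hyE : y ∈ E
    · exact hEc x hxE y hyE
    · obtain ⟨y', hy', rfl⟩ := htwo y hy hyE
      rw [← mul_assoc, hEc x hxE y' hy', mul_assoc, ← hno x hxE, ← mul_assoc]
    · obtain ⟨x', hx', rfl⟩ := htwo x hx hxE
      rw [mul_assoc, hno y hyE, ← mul_assoc, hEc x' hx' y hyE, mul_assoc]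
    · obtain ⟨y', hy', rfl⟩ := htwo y hy hyE
      obtain ⟨x', hx', rfl⟩ := htwo x hx hxE
      calc x' * r * (y' * r) = x' * (r * y') * r := by group
        _ = x' * y' * r * r := by rw [hno y' hy']; group
        _ = y' * x' * r * r := by rw [hEc x' hx' y' hy']
        _ = y' * (x' * r) * r := by group
        _ = y' * (r * x') * r := by rw [hno x' hx']
        _ = y' * r * (x' * r) := by group
  have heS := hE he
  -- the centralizer of `r` in `E`
  let K : Subgroup Ω := E ⊓ Subgroup.centralizer {r}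
  have hK : ∀ x, x ∈ K ↔ x ∈ E ∧ r * x = x * r := by
    intro x
    rw [Subgroup.mem_inf, Subgroup.mem_centralizer_singleton_iff]
    exact ⟨fun hx => ⟨hx.1, hx.2.symm⟩, fun hx => ⟨hx.1, hx.2.symm⟩⟩
  have hKE : K ≤ E := inf_le_left
  have hKi : (K.subgroupOf E).index = 2 := by
    rw [Subgroup.index_eq_two_iff]
    refine ⟨⟨e, he⟩, fun b => ?_⟩
    rw [Subgroup.mem_subgroupOf, Subgroup.mem_subgroupOf, hK, hK]
    by_cases hb : r * (b : Ω) = b * r
    · right
      refine ⟨⟨b.2, hb⟩, ?_⟩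
      rintro ⟨-, h1⟩
      apply hre
      have h2 : r * (b * e) = (b * e) * r := h1
      rw [← mul_assoc, hb, mul_assoc, mul_assoc] at h2
      exact mul_left_cancel h2
    · left
      refine ⟨⟨(b * ⟨e, he⟩ : E).2, ?_⟩, fun h1 => hb h1.2⟩
      exact (h.comm_mul (hE b.2) heS hr (fun h1 => hb h1.symm) (fun h1 => hre h1.symm)).symm
  have hK4 : Nat.card K = 4 := by
    have h1 := Subgroup.card_mul_index (K.subgroupOf E)
    rw [Nat.card_congr (Subgroup.subgroupOfEquivOfLe hKE).toEquiv, hE8, hKi] at h1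
    omega
  have hfK : Finite K := Nat.finite_of_card_ne_zero (by rw [hK4]; norm_num)
  -- `z ∈ K`
  have hzE : z ∈ E := by
    by_contra hno
    obtain ⟨y, hy, h1⟩ := htwo z h.mem hno
    have h2 : y = r := by
      have h3 : z * r = r * z := (h.zc hr).symm
      have h4 : y * r * r = z * r := by rw [← h1]
      have h5 : r * r = z := hrr
      have h6 : y * z = r * z := by rw [← h3, ← h4, mul_assoc, h5]
      exact mul_right_cancel h6
    exact hrE (h2 ▸ hy)
  have hzK : z ∈ K := (hK z).2 ⟨hzE, h.zc hr⟩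
  -- central elements
  have hcen1 : ∀ x ∈ K, ∀ y ∈ S, y * x = x * y := by
    intro x hx y hy
    obtain ⟨hxE, hxr⟩ := (hK x).1 hx
    by_cases hyE : y ∈ E
    · exact hEc y hyE x hxE
    · obtain ⟨y', hy', rfl⟩ := htwo y hy hyE
      rw [mul_assoc, hxr, ← mul_assoc, hEc y' hy' x hxE, mul_assoc]
  have hcen2 : ∀ x ∈ S, r * x = x * r → e * x = x * e → x ∈ K := by
    intro x hx h1 h2
    by_cases hxE : x ∈ E
    · exact (hK x).2 ⟨hxE, h1⟩
    · exfalso
      obtain ⟨y, hy, rfl⟩ := htwo x hx hxE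
      have h3 : r * y = y * r := mul_right_cancel (b := r) (by rw [mul_assoc, mul_assoc]; simpa [mul_assoc] using h1)
      apply hre
      have h4 : y * (r * e) = y * (e * r) := by
        rw [← mul_assoc, ← h2, ← mul_assoc, hEc e he y hy, mul_assoc]
      exact (mul_left_cancel h4)
  -- `c`
  obtain ⟨c, hcK, hc1, hcz⟩ : ∃ c ∈ K, c ≠ 1 ∧ c ≠ z := by
    by_contra hno
    push Not at hno
    have h1 : ((K : Subgroup Ω) : Set Ω) ⊆ {1, z} := by
      intro x hx
      by_cases h1 : x = 1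
      · exact Or.inl h1
      · exact Or.inr (hno x hx h1)
    have h2 := Set.ncard_le_ncard h1 (by simp)
    have h3 : ((K : Subgroup Ω) : Set Ω).ncard = 4 := by
      rw [← hK4]; exact (Nat.card_coe_set_eq _)
    have h4 : ({1, z} : Set Ω).ncard ≤ 2 := Set.ncard_insert_le _ _ |>.trans (by simp)
    omega
  have hcE := hKE hcK
  have hcS := hE hcE
  have hK' : ((K : Subgroup Ω) : Set Ω) = {1, z, c, c * z} := by
    symm
    refine Set.eq_of_subset_of_ncard_le ?_ ?_ (Set.toFinite _)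
    · rintro x (rfl | rfl | rfl | rfl)
      · exact K.one_mem
      · exact hzK
      · exact hcK
      · exact K.mul_mem hcK hzK
    · have h3 : ((K : Subgroup Ω) : Set Ω).ncard = 4 := by
        rw [← hK4]; exact (Nat.card_coe_set_eq _)
      rw [h3]
      have e1 : (1 : Ω) ∉ ({z, c, c * z} : Set Ω) := by
        rintro (h1 | h1 | h1)
        · exact h.ne h1.symm
        · exact hc1 h1.symm
        · apply hcz
          have h4 : c * z * z = 1 * z := by rw [← h1]
          rw [mul_assoc, h.zz, mul_one, one_mul] at h4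
          exact h4
      have e2 : z ∉ ({c, c * z} : Set Ω) := by
        rintro (h1 | h1)
        · exact hcz h1.symm
        · exact hc1 (mul_right_cancel (h1.symm.trans (one_mul z).symm))
      have e3 : c ∉ ({c * z} : Set Ω) := by
        intro h1
        exact h.ne (mul_left_cancel ((mul_one c).trans h1)).symm
      rw [Set.ncard_insert_of_notMem e1, Set.ncard_insert_of_notMem e2, Set.ncard_insert_of_notMem e3,
        Set.ncard_singleton]
  refine ⟨r, e, c, h, hr, heS, hcS, hrr, hel e he, (h.comm r hr e heS).resolve_left hre, ?_, hel c hcE, hc1, hcz, ?_, ?_⟩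
  · exact fun x hx => hcen1 c hcK x hx
  · intro w hw hwc
    have h1 : w ∈ K := hcen2 w hw (hwc r hr) (hwc e heS)
    have h2 : w ∈ ((K : Subgroup Ω) : Set Ω) := h1
    rw [hK'] at h2
    exact h2
  · intro x hx
    have hre' : r * e ∈ S := S.mul_mem hr heS
    -- `x = w * u` with `w` commuting with `r` and `e`
    have key : ∀ u ∈ S, r * (x * u⁻¹) = (x * u⁻¹) * r → e * (x * u⁻¹) = (x * u⁻¹) * e →
        ∃ w ∈ S, (∀ y ∈ S, y * w = w * y) ∧ x = w * u := by
      intro u hu h1 h2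
      have h3 := hcen2 (x * u⁻¹) (S.mul_mem hx (S.inv_mem hu)) h1 h2
      exact ⟨x * u⁻¹, hE (hKE h3), fun y hy => hcen1 _ h3 y hy, by group⟩
    have hinv : ∀ u ∈ S, ∀ y ∈ S, u * y ≠ y * u → u⁻¹ * y ≠ y * u⁻¹ := by
      intro u _ y _ h1 h2
      apply h1
      have h3 : Commute u⁻¹ y := h2
      exact (Commute.inv_left_iff.1 h3)
    have hcm : ∀ u ∈ S, ∀ y ∈ S, (x * y = y * x ↔ u * y = y * u) → y * (x * u⁻¹) = (x * u⁻¹) * y := by
      intro u hu y hy hiff
      by_cases h1 : x * y = y * x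
      · have h2 : Commute u y := hiff.1 h1
        have h3 : Commute x y := h1
        exact ((h3.mul_left h2.inv_left).symm : _)
      · have h2 := mt hiff.2 h1
        exact (h.comm_mul hx (S.inv_mem hu) hy h1 (hinv u hu y hy h2)).symm
    have hre2 : ¬ (r * e) * r = r * (r * e) := by
      intro h1
      rw [mul_assoc] at h1
      exact hre (mul_left_cancel h1).symm
    have hre3 : ¬ (r * e) * e = e * (r * e) := by
      intro h1
      rw [← mul_assoc] at h1
      exact hre (mul_right_cancel h1)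
    by_cases h1 : x * r = r * x <;> by_cases h2 : x * e = e * x
    · obtain ⟨w, hw, hwc, hx'⟩ := key 1 S.one_mem (hcm 1 S.one_mem r hr (iff_of_true h1 (by simp)))
        (hcm 1 S.one_mem e heS (iff_of_true h2 (by simp)))
      exact ⟨w, hw, hwc, Or.inl (by rw [hx', mul_one])⟩
    · obtain ⟨w, hw, hwc, hx'⟩ := key r hr (hcm r hr r hr (iff_of_true h1 rfl))
        (hcm r hr e heS (iff_of_false h2 hre))
      exact ⟨w, hw, hwc, Or.inr (Or.inl hx')⟩
    · obtain ⟨w, hw, hwc, hx'⟩ := key e heS (hcm e heS r hr (iff_of_false h1 (fun h => hre h.symm)))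
        (hcm e heS e heS (iff_of_true h2 rfl))
      exact ⟨w, hw, hwc, Or.inr (Or.inr (Or.inl hx'))⟩
    · obtain ⟨w, hw, hwc, hx'⟩ := key (r * e) hre' (hcm _ hre' r hr (iff_of_false h1 hre2))
        (hcm _ hre' e heS (iff_of_false h2 hre3))
      exact ⟨w, hw, hwc, Or.inr (Or.inr (Or.inr hx'))⟩

namespace Co

variable {r e c : Ω}

theorem cen_sq (h : Co S z r e c) {w : Ω} (hw : w ∈ S) (hwc : ∀ x ∈ S, x * w = w * x) : w * w = 1 := by
  rcases h.cen w hw hwc with rfl | rfl | rfl | rfl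
  · exact one_mul _
  · exact h.sz.zz
  · exact h.c_sq
  · calc c * z * (c * z) = c * (z * c) * z := by group
      _ = c * (c * z) * z := by rw [← h.cc z h.sz.mem]
      _ = (c * c) * (z * z) := by group
      _ = 1 := by rw [h.c_sq, h.sz.zz, one_mul]

theorem er (h : Co S z r e c) : e * r = z * (r * e) := by
  rw [h.re, ← mul_assoc, h.sz.zz, one_mul]

theorem re_sq (h : Co S z r e c) : (r * e) * (r * e) = 1 := by
  calc (r * e) * (r * e) = r * (e * r) * e := by group
    _ = r * (z * (r * e)) * e := by rw [h.er]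
    _ = (r * z) * r * (e * e) := by group
    _ = z * (r * r) := by rw [h.sz.zc h.r_mem, h.ee]; group
    _ = 1 := by rw [h.rr, h.sz.zz]

theorem re_ne (h : Co S z r e c) : r * e ≠ e * r := by
  intro h1
  have h2 := h.re
  rw [← h1] at h2
  exact h.sz.ne (mul_right_cancel ((one_mul _).trans h2)).symm

/-- every injective endomorphism of `S` has order dividing 4 -/
theorem iterate_four (h : Co S z r e c) {f : Ω → Ω} (hm : ∀ x ∈ S, f x ∈ S)
    (hmul : ∀ x ∈ S, ∀ y ∈ S, f (x * y) = f x * f y) (hinj : ∀ x ∈ S, ∀ y ∈ S, f x = f y → x = y) :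
    ∀ x ∈ S, f (f (f (f x))) = x := by
  have hfS := h.sz.fin
  have hsurj : ∀ y ∈ S, ∃ x ∈ S, f x = y := by
    let g : S → S := fun x => ⟨f x, hm x x.2⟩
    have hg : Function.Injective g := fun x y hxy =>
      Subtype.ext (hinj x x.2 y y.2 (congrArg Subtype.val hxy))
    intro y hy
    obtain ⟨x, hx⟩ := Finite.surjective_of_injective hg ⟨y, hy⟩
    exact ⟨x, x.2, congrArg Subtype.val hx⟩
  have f1 : f 1 = 1 := by
    have h1 := hmul 1 S.one_mem 1 S.one_mem
    rw [mul_one] at h1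
    exact (mul_left_cancel (h1.symm.trans (mul_one _).symm))
  have hr := h.r_mem
  have he := h.e_mem
  have hc := h.c_mem
  have hz := h.sz.mem
  have fz : f z = z := by
    have h1 : f r * f e ≠ f e * f r := by
      intro h1
      rw [← hmul r hr e he, ← hmul e he r hr] at h1
      exact h.re_ne (hinj _ (S.mul_mem hr he) _ (S.mul_mem he hr) h1)
    have h2 := (h.sz.comm (f r) (hm r hr) (f e) (hm e he)).resolve_left h1
    have h3 := congrArg f h.re
    rw [hmul r hr e he, hmul z hz _ (S.mul_mem he hr), hmul e he r hr] at h3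
    exact mul_right_cancel (h3.symm.trans h2)
  have fcen : ∀ w ∈ S, (∀ x ∈ S, x * w = w * x) → ∀ y ∈ S, y * f w = f w * y := by
    intro w hw hwc y hy
    obtain ⟨x, hx, rfl⟩ := hsurj y hy
    rw [← hmul x hx w hw, ← hmul w hw x hx, hwc x hx]
  have fcc : f (f c) = c := by
    rcases h.cen (f c) (hm c hc) (fcen c hc h.cc) with h1 | h1 | h1 | h1
    · exact absurd (hinj c hc 1 S.one_mem (h1.trans f1.symm)) h.c_ne
    · exact absurd (hinj c hc z hz (h1.trans fz.symm)) h.c_ne'
    · rw [h1, h1]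
    · rw [h1, hmul c hc z hz, fz, h1, mul_assoc, h.sz.zz, mul_one]
  have ffw : ∀ w ∈ S, (∀ x ∈ S, x * w = w * x) → f (f w) = w := by
    intro w hw hwc
    rcases h.cen w hw hwc with rfl | rfl | rfl | rfl
    · rw [f1, f1]
    · rw [fz, fz]
    · exact fcc
    · rw [hmul c hc z hz, hmul _ (hm c hc) _ (hm z hz), fcc, fz, fz]
  -- the image of `r`
  obtain ⟨w1, hw1, hwc1, fr⟩ : ∃ w ∈ S, (∀ y ∈ S, y * w = w * y) ∧ f r = w * r := by
    obtain ⟨w, hw, hwc, h1⟩ := h.dec (f r) (hm r hr)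
    have h2 : f r * f r = z := by rw [← hmul r hr r hr, h.rr, fz]
    have h3 := h.cen_sq hw hwc
    rcases h1 with h1 | h1 | h1 | h1
    · rw [h1, h3] at h2
      exact absurd h2.symm h.sz.ne
    · exact ⟨w, hw, hwc, h1⟩
    · rw [h1] at h2
      exfalso
      apply h.sz.ne
      rw [← h2]
      calc w * e * (w * e) = w * (e * w) * e := by group
        _ = (w * w) * (e * e) := by rw [hwc e he]; group
        _ = 1 := by rw [h3, h.ee, one_mul]
    · rw [h1] at h2
      exfalso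
      apply h.sz.ne
      rw [← h2]
      have h4 := hwc (r * e) (S.mul_mem hr he)
      calc w * (r * e) * (w * (r * e)) = w * ((r * e) * w) * (r * e) := by group
        _ = (w * w) * ((r * e) * (r * e)) := by rw [h4]; group
        _ = 1 := by rw [h3, h.re_sq, one_mul]
  obtain ⟨w2, hw2, hwc2, fe⟩ : ∃ w ∈ S, (∀ y ∈ S, y * w = w * y) ∧ (f e = w * e ∨ f e = w * (r * e)) := by
    obtain ⟨w, hw, hwc, h1⟩ := h.dec (f e) (hm e he)
    have h2 : f e * f e = 1 := by rw [← hmul e he e he, h.ee, f1]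
    have h3 := h.cen_sq hw hwc
    rcases h1 with h1 | h1 | h1 | h1
    · exfalso
      apply h.re_ne
      apply hinj _ (S.mul_mem hr he) _ (S.mul_mem he hr)
      rw [hmul r hr e he, hmul e he r hr, h1]
      exact hwc _ (hm r hr)
    · exfalso
      rw [h1] at h2
      apply h.sz.ne
      rw [← h2]
      calc z = r * r := h.rr.symm
        _ = (w * w) * (r * r) := by rw [h3, one_mul]
        _ = w * (w * r) * r := by group
        _ = w * (r * w) * r := by rw [hwc r hr]
        _ = w * r * (w * r) := by group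
    · exact ⟨w, hw, hwc, Or.inl h1⟩
    · exact ⟨w, hw, hwc, Or.inr h1⟩
  have mulcen : ∀ u ∈ S, ∀ v ∈ S, (∀ y ∈ S, y * u = u * y) → (∀ y ∈ S, y * v = v * y) →
      ∀ y ∈ S, y * (u * v) = (u * v) * y := by
    intro u _ v _ h1 h2 y hy
    rw [← mul_assoc, h1 y hy, mul_assoc, h2 y hy, mul_assoc]
  obtain ⟨w3, hw3, hwc3, ffr⟩ : ∃ w ∈ S, (∀ y ∈ S, y * w = w * y) ∧ f (f r) = w * r := by
    refine ⟨f w1 * w1, S.mul_mem (hm _ hw1) hw1, mulcen _ (hm _ hw1) _ hw1 (fcen _ hw1 hwc1) hwc1, ?_⟩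
    have h1 := hmul w1 hw1 r hr
    rw [← fr] at h1
    rw [h1, mul_assoc, ← fr]
  obtain ⟨w4, hw4, hwc4, ffe⟩ : ∃ w ∈ S, (∀ y ∈ S, y * w = w * y) ∧ f (f e) = w * e := by
    rcases fe with fe | fe
    · refine ⟨f w2 * w2, S.mul_mem (hm _ hw2) hw2, mulcen _ (hm _ hw2) _ hw2 (fcen _ hw2 hwc2) hwc2, ?_⟩
      have h1 := hmul w2 hw2 e he
      rw [← fe] at h1
      rw [h1, mul_assoc, ← fe]
    · have h1 := hmul w2 hw2 (r * e) (S.mul_mem hr he)
      rw [← fe, hmul r hr e he, fr, fe] at h1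
      have hu1 := mulcen _ hw1 _ hw2 hwc1 hwc2
      have hu2 := mulcen _ (S.mul_mem hw1 hw2) _ hz hu1 (fun y hy => h.sz.zc hy)
      refine ⟨f w2 * (w1 * w2 * z), S.mul_mem (hm _ hw2) (S.mul_mem (S.mul_mem hw1 hw2) hz),
        mulcen _ (hm _ hw2) _ (S.mul_mem (S.mul_mem hw1 hw2) hz) (fcen _ hw2 hwc2) hu2, ?_⟩
      rw [fe, h1]
      calc f w2 * (w1 * r * (w2 * (r * e))) = f w2 * (w1 * (r * w2) * (r * e)) := by group
        _ = f w2 * (w1 * w2 * (r * r)) * e := by rw [hwc2 r hr]; group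
        _ = _ := by rw [h.rr]
  have four : ∀ u ∈ S, (∃ w ∈ S, (∀ y ∈ S, y * w = w * y) ∧ f (f u) = w * u) → f (f (f (f u))) = u := by
    rintro u hu ⟨w, hw, hwc, h1⟩
    rw [h1, hmul w hw u hu, hmul _ (hm w hw) _ (hm u hu), ffw w hw hwc, h1, ← mul_assoc, h.cen_sq hw hwc,
      one_mul]
  have f4r := four r hr ⟨w3, hw3, hwc3, ffr⟩
  have f4e := four e he ⟨w4, hw4, hwc4, ffe⟩
  have f4w : ∀ w ∈ S, (∀ x ∈ S, x * w = w * x) → f (f (f (f w))) = w := by
    intro w hw hwc
    rw [ffw w hw hwc, ffw w hw hwc]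
  have f4mul : ∀ x ∈ S, ∀ y ∈ S, f (f (f (f (x * y)))) = f (f (f (f x))) * f (f (f (f y))) := by
    intro x hx y hy
    have hx2 := hm x hx
    have hx3 := hm _ hx2
    have hx4 := hm _ hx3
    have hy2 := hm y hy
    have hy3 := hm _ hy2
    have hy4 := hm _ hy3
    rw [hmul x hx y hy, hmul _ hx2 _ hy2, hmul _ hx3 _ hy3, hmul _ hx4 _ hy4]
  intro x hx
  obtain ⟨w, hw, hwc, h1⟩ := h.dec x hx
  rcases h1 with rfl | rfl | rfl | rfl
  · exact f4w _ hw hwc
  · rw [f4mul _ hw _ hr, f4w _ hw hwc, f4r]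
  · rw [f4mul _ hw _ he, f4w _ hw hwc, f4e]
  · rw [f4mul _ hw _ (S.mul_mem hr he), f4mul _ hr _ he, f4w _ hw hwc, f4r, f4e]

end Co

/-- subgroups of index two avoiding a given element -/
theorem exists_avoid [Finite S] {N : Subgroup Ω} (hN : N ≤ S) (hsq : ∀ x ∈ S, x * x ∈ N)
    (hcomm : ∀ x ∈ S, ∀ y ∈ S, x * y * x⁻¹ * y⁻¹ ∈ N) {c : Ω} (hc : c ∈ S) (hcN : c ∉ N) :
    ∃ K : Subgroup Ω, N ≤ K ∧ K ≤ S ∧ c ∉ K ∧ ∀ x ∈ S, x ∈ K ∨ x * c ∈ K := by
  classical
  have hfin : {K : Subgroup Ω | N ≤ K ∧ K ≤ S ∧ c ∉ K}.Finite := by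
    have : Finite (Set.Iic S) := by
      have h1 : Finite (Subgroup S) := inferInstance
      refine Finite.of_injective (β := Subgroup S) (fun K => K.1.subgroupOf S) ?_
      rintro ⟨K, hK⟩ ⟨L, hL⟩ hKL
      have h2 : K.subgroupOf S = L.subgroupOf S := hKL
      have h3 := congrArg (Subgroup.map S.subtype) h2
      rw [Subgroup.subgroupOf_map_subtype, Subgroup.subgroupOf_map_subtype,
        inf_eq_left.2 (show K ≤ S from hK), inf_eq_left.2 (show L ≤ S from hL)] at h3
      exact Subtype.ext h3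
    have h4 : (Set.Iic S).Finite := Set.toFinite _
    exact h4.subset fun K hK => hK.2.1
  obtain ⟨K, hK⟩ := hfin.exists_maximal ⟨N, le_rfl, hN, hcN⟩
  obtain ⟨⟨h1, h2, h3⟩, hmax⟩ := hK
  refine ⟨K, h1, h2, h3, fun x hx => ?_⟩
  by_contra hno
  push Not at hno
  obtain ⟨hxK, hxc⟩ := hno
  -- conjugation
  have hcj : ∀ y ∈ S, ∀ k ∈ K, y * k * y⁻¹ ∈ K := by
    intro y hy k hk
    have h4 := K.mul_mem (h1 (hcomm y hy k (h2 hk))) hk
    rwa [inv_mul_cancel_right] at h4
  have hcj' : ∀ y ∈ S, ∀ k ∈ K, y⁻¹ * k * y ∈ K := by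
    intro y hy k hk
    have := hcj y⁻¹ (S.inv_mem hy) k hk
    rwa [inv_inv] at this
  have hswap : ∀ a ∈ S, ∀ b ∈ S, a * b ∈ K → b * a ∈ K := by
    intro a ha b hb h4
    have h5 := hcj' a ha _ h4
    rwa [← mul_assoc, inv_mul_cancel, one_mul] at h5
  let L : Subgroup Ω :=
    { carrier := {y | y ∈ S ∧ (y ∈ K ∨ y * x ∈ K)}
      one_mem' := ⟨S.one_mem, Or.inl K.one_mem⟩
      mul_mem' := by
        rintro a b ⟨ha, ha'⟩ ⟨hb, hb'⟩
        refine ⟨S.mul_mem ha hb, ?_⟩
        rcases ha' with ha' | ha' <;> rcases hb' with hb' | hb'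
        · exact Or.inl (K.mul_mem ha' hb')
        · right
          rw [mul_assoc]
          exact K.mul_mem ha' hb'
        · right
          have h4 := K.mul_mem ha' (hcj' x hx b hb')
          have h5 : a * x * (x⁻¹ * b * x) = a * b * x := by group
          rwa [h5] at h4
        · left
          have h4 := K.mul_mem ha' (hswap b hb x hx hb')
          have h5 := K.mul_mem h4 (K.inv_mem (hcj' b hb _ (h1 (hsq x hx))))
          have h6 : a * x * (x * b) * (b⁻¹ * (x * x) * b)⁻¹ = a * b := by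
            have h7 : a * x * (x * b) * (b⁻¹ * (x * x) * b)⁻¹ =
              a * (x * x) * b * b⁻¹ * (x * x)⁻¹ * b := by group
            rw [h7]; group
          rwa [h6] at h5
      inv_mem' := by
        rintro a ⟨ha, ha'⟩
        refine ⟨S.inv_mem ha, ?_⟩
        rcases ha' with ha' | ha'
        · exact Or.inl (K.inv_mem ha')
        · right
          have h4 := K.inv_mem (hswap a ha x hx ha')
          have h5 := K.mul_mem h4 (h1 (hsq x hx))
          have h6 : (x * a)⁻¹ * (x * x) = a⁻¹ * x := by group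
          rwa [h6] at h5 }
  have hKL : K ≤ L := fun k hk => ⟨h2 hk, Or.inl hk⟩
  have hcL : c ∉ L := by
    rintro ⟨-, h4 | h4⟩
    · exact h3 h4
    · exact hxc (hswap c hc x hx h4)
  have h4 := hmax ⟨h1.trans hKL, fun y hy => hy.1, hcL⟩ hKL
  exact hxK (h4 ⟨hx, Or.inr (h1 (hsq x hx))⟩)

end Cfsg.Agent.H604.Small.DFourGrp
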